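import Mathlib
import Cfsg.Prelude.Def_OddOrderLocal
import Cfsg.Agent.Lib.Lead.Cores
import Cfsg.Agent.Lib.Helper22.Generation2
import Cfsg.Agent.Lib.Helper22.SupLemmas
import Cfsg.Agent.Lib.Helper52.FPF
import Cfsg.Agent.S4116
import Cfsg.Agent.S0016
import Cfsg.Agent.Lib.Helper1.FrobComplement

set_option autoImplicit false
set_option linter.style.haveILetI false

/-!
# TI-subgroups that are Hall subgroups of their normalizers, in `π`-separable groups
-/

namespace Cfsg.Agent.Lib.Helper55.TIHall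

open Cfsg Subgroup

variable {G : Type*} [Group G]

theorem mem_normalizer_of_conj {H : Subgroup G} (hTI : IsTISubset (H : Set G)) {x g : G}
    (hx : x ∈ H) (hx1 : x ≠ 1) (hg : g * x * g⁻¹ ∈ H) : g ∈ normalizer (H : Set G) := by
  by_contra hcon
  exact hx1 (hTI g hcon x hx hg)

/-- elements of `N_G(H)` of order prime to `|N_G(H) : H|` lie in `H` -/
theorem mem_of_mem_normalizer {H : Subgroup G} {y : G} (hy : y ∈ normalizer (H : Set G))
    (hc : ((H.subgroupOf (normalizer (H : Set G))).index).Coprime (orderOf y)) : y ∈ H := by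
  haveI : (H.subgroupOf (normalizer (H : Set G))).Normal := Subgroup.normal_in_normalizer
  have h1 := Subgroup.pow_index_mem (H.subgroupOf (normalizer (H : Set G))) ⟨y, hy⟩
  rw [mem_subgroupOf] at h1
  obtain ⟨m, hm⟩ := exists_pow_eq_self_of_coprime hc
  rw [← hm]
  exact H.pow_mem h1 m

/-- `H` is a Hall subgroup of `G`. -/
theorem coprime_index [Finite G] {H : Subgroup G} (hTI : IsTISubset (H : Set G))
    (hHall : (Nat.card H).Coprime (H.subgroupOf (normalizer (H : Set G))).index) :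
    (Nat.card H).Coprime H.index := by
  apply Nat.Coprime.symm
  apply Nat.coprime_of_dvd
  intro p hp hpi hpH
  haveI : Fact p.Prime := ⟨hp⟩
  obtain ⟨P⟩ : Nonempty (Sylow p H) := inferInstance
  set P' : Subgroup G := (P : Subgroup H).map H.subtype with hP'
  have hP'H : P' ≤ H := map_subtype_le _
  have hP'p : IsPGroup p P' := P.isPGroup'.map _
  obtain ⟨S, hS⟩ := hP'p.exists_le_sylow
  -- `S ⊓ H = P'`
  have hSH : (S : Subgroup G) ⊓ H ≤ P' := by
    have h1 : IsPGroup p (((S : Subgroup G) ⊓ H).subgroupOf H) :=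
      (S.isPGroup'.to_le inf_le_left).comap_of_injective _ (subtype_injective H)
    have h2 : (P : Subgroup H) ≤ ((S : Subgroup G) ⊓ H).subgroupOf H := by
      intro x hx
      rw [mem_subgroupOf]
      exact ⟨hS (mem_map_of_mem _ hx), x.2⟩
    have h3 := P.is_maximal' h1 h2
    intro x hx
    have h4 : (⟨x, hx.2⟩ : H) ∈ ((S : Subgroup G) ⊓ H).subgroupOf H := by
      rw [mem_subgroupOf]; exact hx
    rw [h3] at h4
    exact ⟨_, h4, rfl⟩
  have hPne : ∃ y ∈ P', y ≠ 1 := by
    have h1 : (P : Subgroup H) ≠ ⊥ := by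
      intro h
      have h2 := P.card_eq_multiplicity
      rw [h, card_bot] at h2
      have h3 : (Nat.card H).factorization p = 0 := by
        by_contra h4
        have : 1 < p ^ (Nat.card H).factorization p := Nat.one_lt_pow h4 hp.one_lt
        omega
      rcases (Nat.factorization_eq_zero_iff _ _).1 h3 with h | h | h
      · exact h hp
      · exact h hpH
      · exact Nat.card_pos.ne' h
    obtain ⟨y, hy1⟩ := Subgroup.ne_bot_iff_exists_ne_one.1 h1
    exact ⟨((y : H) : G), mem_map_of_mem _ y.2, fun h => hy1 (Subtype.ext (Subtype.ext h))⟩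
  have hEq : P' = S := by
    by_contra hne
    have hlt : P' < S := lt_of_le_of_ne hS hne
    obtain ⟨x, hxS, hxn, hxP⟩ := Cfsg.Agent.Lib.Helper22.exists_mem_normalizer_not_mem S.isPGroup' hlt
    obtain ⟨y, hy, hy1⟩ := hPne
    have h1 : x * y * x⁻¹ ∈ P' := (mem_normalizer_iff.1 hxn y).1 hy
    have h2 : x ∈ normalizer (H : Set G) := mem_normalizer_of_conj hTI (hP'H hy) hy1 (hP'H h1)
    have h3 : x ∈ H := by
      apply mem_of_mem_normalizer h2
      obtain ⟨k, hk⟩ := (IsPGroup.iff_orderOf.1 S.isPGroup') ⟨x, hxS⟩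
      rw [Subgroup.orderOf_mk] at hk
      rw [hk]
      apply Nat.Coprime.pow_right
      exact (Nat.Coprime.of_dvd_left hpH hHall).symm
    exact hxP (hSH ⟨hxS, h3⟩)
  have h5 : ¬ p ∣ (S : Subgroup G).index := S.not_dvd_index
  rw [← hEq] at h5
  exact h5 (hpi.trans (index_dvd_of_le hP'H))

theorem ne_bot_of_not_normal {H : Subgroup G} (hnn : ¬ H.Normal) : H ≠ ⊥ := by
  rintro rfl
  exact hnn inferInstance

/-- `G = O_{π'}(G) N_G(H)` -/
theorem core_sup_normalizer [Finite G] {H : Subgroup G} (hTI : IsTISubset (H : Set G))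
    (hnn : ¬ H.Normal)
    (hHall : (Nat.card H).Coprime (H.subgroupOf (normalizer (H : Set G))).index)
    (hsep : ∃ (n : ℕ) (M : Fin (n + 1) → Subgroup G), M 0 = ⊥ ∧ M (Fin.last n) = ⊤ ∧ Monotone M ∧
      (∀ i, (M i).Normal) ∧
      ∀ i : Fin n, (∀ q : ℕ, q.Prime → q ∣ (M i.castSucc).relIndex (M i.succ) → q ∣ Nat.card H) ∨
        ((M i.castSucc).relIndex (M i.succ)).Coprime (Nat.card H)) :
    pPrimeCore (Nat.card H) G ⊔ normalizer (H : Set G) = ⊤ := by
  set O := pPrimeCore (Nat.card H) G with hO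
  have hOn : O.Normal := (Cfsg.Agent.Lib.Lead.pPrimeCore_mem (G := G) (Nat.card H)).1
  have hOc : (Nat.card O).Coprime (Nat.card H) :=
    (Cfsg.Agent.Lib.Lead.pPrimeCore_mem (G := G) (Nat.card H)).2
  have hHG := coprime_index hTI hHall
  have hH1 : H ≠ ⊥ := ne_bot_of_not_normal hnn
  obtain ⟨n, M, hM0, hMn, hMmono, hMnorm, hMfac⟩ := hsep
  have hOtop : ¬ (⊤ : Subgroup G) ≤ O := by
    intro h
    have h1 : Nat.card H ∣ Nat.card O := card_dvd_of_le (le_top.trans h)
    have h2 : Nat.card H = 1 := Nat.Coprime.eq_one_of_dvd hOc.symm h1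
    exact hH1 (card_eq_one.1 h2)
  -- the first step of the series leaving `O`
  obtain ⟨i, hiL, hiK⟩ : ∃ i : Fin n, M i.castSucc ≤ O ∧ ¬ M i.succ ≤ O := by
    by_contra hcon
    push Not at hcon
    have h1 : ∀ j : Fin (n + 1), M j ≤ O := by
      intro j
      induction j using Fin.induction with
      | zero => rw [hM0]; exact bot_le
      | succ j ih => exact hcon j ih
    exact hOtop (hMn ▸ h1 (Fin.last n))
  set L := M i.castSucc with hL
  set K := M i.succ with hK
  have hLK : L ≤ K := hMmono (Fin.castSucc_lt_succ (i := i)).le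
  haveI hKn : K.Normal := hMnorm _
  haveI hLn : L.Normal := hMnorm _
  have hLc : (Nat.card L).Coprime (Nat.card H) := Nat.Coprime.of_dvd_left (card_dvd_of_le hiL) hOc
  have hcardK : Nat.card K = L.relIndex K * Nat.card L :=
    (Cfsg.Agent.Lib.Helper22.relIndex_mul_natCard hLK).symm
  have hfac : ∀ q : ℕ, q.Prime → q ∣ L.relIndex K → q ∣ Nat.card H := by
    rcases hMfac i with h | h
    · exact h
    · exfalso
      apply hiK
      apply Cfsg.Agent.Lib.Lead.le_pPrimeCore hKn
      rw [hcardK]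
      exact Nat.Coprime.mul_left h hLc
  have hrel1 : L.relIndex K ≠ 1 := fun h => hiK ((relIndex_eq_one.1 h).trans hiL)
  obtain ⟨p, hp, hpd⟩ := Nat.exists_prime_and_dvd hrel1
  haveI : Fact p.Prime := ⟨hp⟩
  have hpH : p ∣ Nat.card H := hfac p hp hpd
  -- `K ≤ O H`
  have hKOH : K ≤ O ⊔ H := by
    haveI : (L.subgroupOf K).Normal := inferInstance
    have hcop : (Nat.card (L.subgroupOf K)).Coprime (L.subgroupOf K).index := by
      rw [Nat.card_congr (subgroupOfEquivOfLe hLK).toEquiv]
      change (Nat.card L).Coprime (L.relIndex K)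
      apply Nat.Coprime.symm
      apply Nat.coprime_of_dvd
      intro q hq hq1 hq2
      have h1 : q ∣ Nat.gcd (Nat.card L) (Nat.card H) := Nat.dvd_gcd hq2 (hfac q hq hq1)
      rw [hLc] at h1
      exact hq.one_lt.ne' (Nat.dvd_one.1 h1)
    obtain ⟨K₁, hK₁⟩ := exists_right_complement'_of_coprime hcop
    have hK₁card : Nat.card (K₁.map K.subtype) = L.relIndex K := by
      rw [Nat.card_congr (K₁.equivMapOfInjective _ (subtype_injective K)).symm.toEquiv]
      have := hK₁.symm.index_eq_card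
      exact this.symm
    obtain ⟨g, hg⟩ := Cfsg.Agent.S4116.result H hHG hTI (K₁.map K.subtype) (by
      intro q hq hqd
      rw [hK₁card] at hqd
      exact hfac q hq hqd)
    have hsup : K = L ⊔ K₁.map K.subtype := by
      have h1 := congrArg (Subgroup.map K.subtype) hK₁.sup_eq_top
      rw [Subgroup.map_sup, ← MonoidHom.range_eq_map, range_subtype, subgroupOf_map_subtype,
        inf_of_le_left hLK] at h1
      exact h1.symm
    -- conjugate back
    intro x hx
    have hx' : g * x * g⁻¹ ∈ K := hKn.conj_mem x hx g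
    rw [hsup] at hx'
    have h2 : L ⊔ K₁.map K.subtype ≤ O ⊔ H.map (MulAut.conj g).toMonoidHom :=
      sup_le_sup hiL hg
    have h3 := h2 hx'
    rw [sup_comm, mem_sup_of_normal_right] at h3
    obtain ⟨y, ⟨h, hh, rfl⟩, z, hz, hyz⟩ := h3
    have h4 : x = h * (g⁻¹ * z * g) := by
      have h5 : g * h * g⁻¹ * z = g * x * g⁻¹ := hyz
      have h6 : x = g⁻¹ * (g * x * g⁻¹) * g := by group
      rw [h6, ← h5]; group
    rw [h4]
    refine mul_mem (le_sup_right (a := O) hh) (le_sup_left (b := H) ?_)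
    have := hOn.conj_mem z hz g⁻¹
    simpa using this
  -- Frattini
  obtain ⟨P⟩ : Nonempty (Sylow p K) := inferInstance
  have hfr := P.normalizer_sup_eq_top
  set P' : Subgroup G := (P : Subgroup K).map K.subtype with hP'
  have hP'p : IsPGroup p P' := P.isPGroup'.map _
  obtain ⟨g, hg⟩ := Cfsg.Agent.S4116.result H hHG hTI P' (by
    intro q hq hqd
    obtain ⟨k, hk⟩ := IsPGroup.iff_card.1 hP'p
    rw [hk] at hqd
    rw [(Nat.prime_dvd_prime_iff_eq hq hp).1 (hq.dvd_of_dvd_pow hqd)]
    exact hpH)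
  have hP'ne : ∃ y ∈ P', y ≠ 1 := by
    have h1 : (P : Subgroup K) ≠ ⊥ := by
      intro h
      have h2 := P.card_eq_multiplicity
      rw [h, card_bot] at h2
      have h3 : (Nat.card K).factorization p = 0 := by
        by_contra h4
        have : 1 < p ^ (Nat.card K).factorization p := Nat.one_lt_pow h4 hp.one_lt
        omega
      rcases (Nat.factorization_eq_zero_iff _ _).1 h3 with h | h | h
      · exact h hp
      · exact h (by rw [hcardK]; exact Dvd.dvd.mul_right hpd _)
      · exact Nat.card_pos.ne' h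
    obtain ⟨y, hy1⟩ := Subgroup.ne_bot_iff_exists_ne_one.1 h1
    exact ⟨((y : K) : G), mem_map_of_mem _ y.2, fun h => hy1 (Subtype.ext (Subtype.ext h))⟩
  obtain ⟨y, hy, hy1⟩ := hP'ne
  have hnorm : ∀ u ∈ normalizer (P' : Set G), g⁻¹ * u * g ∈ normalizer (H : Set G) := by
    intro u hu
    obtain ⟨h, hh, hhy⟩ := hg hy
    obtain ⟨h', hh', hhy'⟩ := hg ((mem_normalizer_iff.1 hu y).1 hy)
    have e1 : g * h * g⁻¹ = y := hhy
    have e2 : g * h' * g⁻¹ = u * y * u⁻¹ := hhy'
    have hh1 : h ≠ 1 := by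
      rintro rfl
      apply hy1
      rw [← e1]; group
    apply mem_normalizer_of_conj hTI hh hh1
    have e3 : g⁻¹ * u * g * h * (g⁻¹ * u * g)⁻¹ = h' := by
      have : h' = g⁻¹ * (g * h' * g⁻¹) * g := by group
      rw [this, e2, ← e1]; group
    rw [e3]; exact hh'
  rw [eq_top_iff]
  intro x _
  have hx : g * x * g⁻¹ ∈ normalizer (P' : Set G) ⊔ K := by rw [hfr]; exact mem_top _
  rw [mem_sup_of_normal_right] at hx
  obtain ⟨u, hu, k, hk, huk⟩ := hx
  have e : x = (g⁻¹ * u * g) * (g⁻¹ * k * g) := by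
    have : x = g⁻¹ * (g * x * g⁻¹) * g := by group
    rw [this, ← huk]; group
  rw [e]
  refine mul_mem (le_sup_right (a := O) (hnorm u hu)) ?_
  have h1 : g⁻¹ * k * g ∈ K := by
    have := hKn.conj_mem k hk g⁻¹
    simpa using this
  exact (sup_le_sup_left (le_normalizer (H := H)) O) (hKOH h1)

theorem core_inf_eq_bot [Finite G] (H : Subgroup G) : pPrimeCore (Nat.card H) G ⊓ H = ⊥ :=
  (disjoint_of_coprime_natCard
    (Cfsg.Agent.Lib.Lead.pPrimeCore_mem (G := G) (Nat.card H)).2).eq_bot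

/-- `C_O(h) ≤ C_G(H)` for `1 ≠ h ∈ H` -/
theorem core_inf_centralizer_le [Finite G] {H : Subgroup G} (hTI : IsTISubset (H : Set G))
    {h : G} (hh : h ∈ H) (hh1 : h ≠ 1) :
    pPrimeCore (Nat.card H) G ⊓ centralizer {h} ≤ centralizer (H : Set G) := by
  have hOn : (pPrimeCore (Nat.card H) G).Normal :=
    (Cfsg.Agent.Lib.Lead.pPrimeCore_mem (G := G) (Nat.card H)).1
  intro c hc
  obtain ⟨hcO, hch⟩ := mem_inf.1 hc
  have h1 : h * c = c * h := (mem_centralizer_singleton_iff.1 hch).symm
  have hcN : c ∈ normalizer (H : Set G) := by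
    apply mem_normalizer_of_conj hTI hh hh1
    rw [← h1, mul_inv_cancel_right]; exact hh
  rw [mem_centralizer_iff]
  intro x hx
  have h2 : c * x * c⁻¹ * x⁻¹ ∈ pPrimeCore (Nat.card H) G ⊓ H := by
    refine mem_inf.2 ⟨?_, ?_⟩
    · have h3 : c * x * c⁻¹ * x⁻¹ = c * (x * c⁻¹ * x⁻¹) := by group
      rw [h3]
      exact mul_mem hcO (hOn.conj_mem _ (inv_mem hcO) x)
    · exact mul_mem ((mem_normalizer_iff.1 hcN x).1 hx) (inv_mem hx)
  rw [core_inf_eq_bot, mem_bot] at h2
  have h4 : c * x = c * x * c⁻¹ * x⁻¹ * (x * c) := by group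
  rw [h4, h2, one_mul]

/-- abelian subgroups of `H` are cyclic -/
theorem isCyclic_of_abelian_le [Finite G] {H : Subgroup G} (hTI : IsTISubset (H : Set G))
    (hnn : ¬ H.Normal)
    (hHall : (Nat.card H).Coprime (H.subgroupOf (normalizer (H : Set G))).index)
    (hsep : ∃ (n : ℕ) (M : Fin (n + 1) → Subgroup G), M 0 = ⊥ ∧ M (Fin.last n) = ⊤ ∧ Monotone M ∧
      (∀ i, (M i).Normal) ∧
      ∀ i : Fin n, (∀ q : ℕ, q.Prime → q ∣ (M i.castSucc).relIndex (M i.succ) → q ∣ Nat.card H) ∨
        ((M i.castSucc).relIndex (M i.succ)).Coprime (Nat.card H))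
    (E : Subgroup G) (hEH : E ≤ H) (hE : ∀ x ∈ E, ∀ y ∈ E, x * y = y * x) : IsCyclic E := by
  by_contra hcyc
  letI : CommGroup E :=
    { (inferInstance : Group E) with mul_comm := fun a b => Subtype.ext (hE a a.2 b b.2) }
  obtain ⟨r, c, d, hr, hc, hd, hcd⟩ := Cfsg.Agent.Lib.Helper52.exists_rank_two (A := E) hcyc
  haveI : Fact r.Prime := ⟨hr⟩
  have hOn : (pPrimeCore (Nat.card H) G).Normal :=
    (Cfsg.Agent.Lib.Lead.pPrimeCore_mem (G := G) (Nat.card H)).1
  have hOc : (Nat.card (pPrimeCore (Nat.card H) G)).Coprime (Nat.card H) :=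
    (Cfsg.Agent.Lib.Lead.pPrimeCore_mem (G := G) (Nat.card H)).2
  let A : Subgroup G :=
    { carrier := {x | x ∈ E ∧ x ^ r = 1}
      one_mem' := ⟨E.one_mem, one_pow r⟩
      mul_mem' := by
        rintro x y ⟨hx, hx'⟩ ⟨hy, hy'⟩
        refine ⟨E.mul_mem hx hy, ?_⟩
        rw [(show Commute x y from hE x hx y hy).mul_pow, hx', hy', one_mul]
      inv_mem' := by
        rintro x ⟨hx, hx'⟩
        exact ⟨E.inv_mem hx, by rw [inv_pow, hx', inv_one]⟩ }
  have hAE : A ≤ E := fun x hx => hx.1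
  have hAr : ∀ x ∈ A, x ^ r = 1 := fun x hx => hx.2
  have hcA : (c : G) ∈ A := ⟨c.2, by exact_mod_cast congrArg Subtype.val hc⟩
  have hd' : orderOf (d : G) = r := by rw [Subgroup.orderOf_coe, hd]
  have hdA : (d : G) ∈ A := ⟨d.2, by rw [← hd']; exact pow_orderOf_eq_one _⟩
  have hA2 : r ^ 2 ≤ Nat.card A := by
    have hAp : IsPGroup r A := Cfsg.Agent.Lib.Helper22.isPGroup_of_pow_eq_one hAr
    obtain ⟨k, hk⟩ := IsPGroup.iff_card.1 hAp
    have hlt : zpowers (d : G) < A := by
      refine lt_of_le_of_ne (zpowers_le.2 hdA) ?_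
      intro h
      rw [← h] at hcA
      apply hcd
      obtain ⟨m, hm⟩ := mem_zpowers_iff.1 hcA
      exact mem_zpowers_iff.2 ⟨m, Subtype.ext (by simpa using hm)⟩
    have h1 : r < r ^ k := by
      have h0 := Cfsg.Agent.Lib.Helper22.natCard_lt_of_lt hlt
      rwa [Nat.card_zpowers, hd', hk] at h0
    rw [hk]
    apply Nat.pow_le_pow_right hr.pos
    by_contra h2
    have h3 : k ≤ 1 := by omega
    have h4 : r ^ k ≤ r ^ 1 := Nat.pow_le_pow_right hr.pos h3
    rw [pow_one] at h4
    omega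
  have hrH : r ∣ Nat.card H := by
    rw [← hd']
    have := orderOf_dvd_natCard (⟨(d : G), hEH d.2⟩ : H)
    rwa [Subgroup.orderOf_mk] at this
  have hrO : ¬ r ∣ Nat.card (pPrimeCore (Nat.card H) G) := by
    intro h
    have h1 : r ∣ Nat.gcd (Nat.card (pPrimeCore (Nat.card H) G)) (Nat.card H) := Nat.dvd_gcd h hrH
    rw [hOc] at h1
    exact hr.one_lt.ne' (Nat.dvd_one.1 h1)
  have hle : pPrimeCore (Nat.card H) G ≤ centralizer (H : Set G) :=
    Cfsg.Agent.Lib.Helper22.le_of_forall_centralizer_le A _ _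
      (fun x hx y hy => hE x (hAE hx) y (hAE hy)) hAr hA2 hrO
      (by rw [normalizer_eq_top]; exact le_top)
      (fun a ha ha1 => core_inf_centralizer_le hTI (hEH (hAE ha)) ha1)
  have htop := core_sup_normalizer hTI hnn hHall hsep
  have h1 : centralizer (H : Set G) ≤ normalizer (H : Set G) := centralizer_le_normalizer _
  rw [sup_of_le_right (hle.trans h1)] at htop
  exact hnn (normalizer_eq_top_iff.1 htop)

/-- a `p`-group all of whose abelian subgroups are cyclic -/
theorem cyclic_or_quat_of_abelian_cyclic {P : Type*} [Group P] [Finite P] (p : ℕ) [Fact p.Prime]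
    (hP : IsPGroup p P) (key : ∀ E : Subgroup P, IsMulCommutative E → IsCyclic E) :
    IsCyclic P ∨ (p = 2 ∧ ∃ n : ℕ, Nonempty (P ≃* QuaternionGroup (2 ^ n))) := by
  have huniq : ∀ A B : Subgroup P, Nat.card A = p → Nat.card B = p → A = B := by
    have hp : p.Prime := Fact.out
    intro A₀ B₀ hA₀ hB₀
    have hnt : Nontrivial P := by
      by_contra h
      rw [not_nontrivial_iff_subsingleton] at h
      have : Nat.card A₀ = 1 := Nat.card_eq_one_iff_unique.2 ⟨inferInstance, ⟨1⟩⟩
      rw [hA₀] at this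
      exact hp.one_lt.ne' this
    have hcn := hP.center_nontrivial
    have hdvd : p ∣ Nat.card (Subgroup.center P) := by
      obtain ⟨k, hk⟩ := IsPGroup.iff_card.1 (hP.to_subgroup (Subgroup.center P))
      rw [hk]
      apply dvd_pow_self
      rintro rfl
      rw [pow_zero] at hk
      exact (Finite.one_lt_card_iff_nontrivial.2 hcn).ne' hk
    obtain ⟨z, hz⟩ := exists_prime_orderOf_dvd_card' (G := Subgroup.center P) p hdvd
    have hz' : orderOf (z : P) = p := by rw [Subgroup.orderOf_coe, hz]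
    have hZcard : Nat.card (Subgroup.zpowers (z : P)) = p := by
      rw [Nat.card_zpowers, hz']
    have claim : ∀ A : Subgroup P, Nat.card A = p → A = Subgroup.zpowers (z : P) := by
      intro A hA
      have hAc : IsCyclic A := isCyclic_of_prime_card hA
      have hEab : IsMulCommutative (A ⊔ Subgroup.zpowers (z : P) : Subgroup _) := by
        rw [Subgroup.sup_eq_closure]
        apply Subgroup.isMulCommutative_closure
        have hzc : ∀ w ∈ Subgroup.zpowers (z : P), ∀ y, y * w = w * y := by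
          intro w hw y
          have : w ∈ Subgroup.center P := (Subgroup.zpowers_le.2 z.2) hw
          exact (Subgroup.mem_center_iff.1 this) y
        rintro a (ha | ha) b (hb | hb)
        · have hAm : IsMulCommutative A := IsCyclic.isMulCommutative
          have := mul_comm' (⟨a, ha⟩ : A) ⟨b, hb⟩
          exact congrArg Subtype.val this
        · exact hzc b hb a
        · exact (hzc a ha b).symm
        · exact hzc b hb a
      have hEc := key _ hEab
      have h1 : A.subgroupOf (A ⊔ Subgroup.zpowers (z : P))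
          = (Subgroup.zpowers (z : P)).subgroupOf (A ⊔ Subgroup.zpowers (z : P)) := by
        apply Cfsg.Agent.Lib.Helper1.FrobComplement.eq_of_card_eq_of_isCyclic
        rw [Cfsg.Agent.Lib.Helper1.card_subgroupOf le_sup_left,
          Cfsg.Agent.Lib.Helper1.card_subgroupOf le_sup_right, hA, hZcard]
      rw [Subgroup.subgroupOf_inj, inf_of_le_left le_sup_left, inf_of_le_left le_sup_right] at h1
      exact h1
    rw [claim A₀ hA₀, claim B₀ hB₀]
  exact Cfsg.Agent.S0016.result p hP huniq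

/-- Sylow subgroups of `H` are cyclic or generalized quaternion -/
theorem sylow_cyclic_or_quat [Finite G] {H : Subgroup G} (hTI : IsTISubset (H : Set G))
    (hnn : ¬ H.Normal)
    (hHall : (Nat.card H).Coprime (H.subgroupOf (normalizer (H : Set G))).index)
    (hsep : ∃ (n : ℕ) (M : Fin (n + 1) → Subgroup G), M 0 = ⊥ ∧ M (Fin.last n) = ⊤ ∧ Monotone M ∧
      (∀ i, (M i).Normal) ∧
      ∀ i : Fin n, (∀ q : ℕ, q.Prime → q ∣ (M i.castSucc).relIndex (M i.succ) → q ∣ Nat.card H) ∨
        ((M i.castSucc).relIndex (M i.succ)).Coprime (Nat.card H))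
    (p : ℕ) [Fact p.Prime] (P : Sylow p H) :
    IsCyclic (P : Subgroup H) ∨
      (p = 2 ∧ ∃ n : ℕ, Nonempty ((P : Subgroup H) ≃* QuaternionGroup (2 ^ n))) := by
  apply cyclic_or_quat_of_abelian_cyclic p P.isPGroup'
  intro E hE
  have h1 : IsCyclic ((E.map (P : Subgroup H).subtype).map H.subtype : Subgroup G) := by
    apply isCyclic_of_abelian_le hTI hnn hHall hsep _ (map_subtype_le _)
    rintro _ ⟨_, ⟨x, hx, rfl⟩, rfl⟩ _ ⟨_, ⟨y, hy, rfl⟩, rfl⟩
    have := mul_comm' (⟨x, hx⟩ : E) ⟨y, hy⟩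
    have h2 : x * y = y * x := congrArg Subtype.val this
    exact congrArg (fun t : (P : Subgroup H) => ((t : H) : G)) h2
  let e1 := E.equivMapOfInjective (P : Subgroup H).subtype (Subgroup.subtype_injective _)
  let e2 := (E.map (P : Subgroup H).subtype).equivMapOfInjective H.subtype
    (Subgroup.subtype_injective _)
  exact isCyclic_of_injective (e1.trans e2).toMonoidHom (e1.trans e2).injective

end Cfsg.Agent.Lib.Helper55.TIHall
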